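import Cfsg.Agent.H282.SK.Tools

/-!
# S3010 (Sidki pairs): a criterion for groups all of whose automorphisms are inner (helper768)

* `Bad v` : `v` inverts an `x` of odd order such that every involution of `C(v) ∩ C(x)` inverts a nontrivial element
  of odd order of `C(v) ∩ C(x)`;
* `not_bad` : no element of `V#` is bad; `bad_map`, `bad_conj`, `bad_of_O2`;
* `exists_equiv` : `G ≃* X` if `K ≃* X` and all automorphisms of `X` are inner;
* `false_of_classes`.
-/

set_option autoImplicit false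
set_option linter.unusedVariables false

universe u v

open Subgroup Cfsg

namespace Cfsg.Agent.H768.SK

open Cfsg.Agent.H282.SK

/-- `v` inverts an `x` of odd order such that every involution of `C(v) ∩ C(x)` inverts a nontrivial element of odd
order of `C(v) ∩ C(x)`. -/
def Bad {G : Type*} [Group G] (v : G) : Prop :=
  ∃ x : G, Odd (orderOf x) ∧ v * x * v⁻¹ = x⁻¹ ∧ ∀ w : G, w ≠ 1 → w * w = 1 → Commute w v → Commute w x →
    ∃ y : G, y ≠ 1 ∧ Odd (orderOf y) ∧ Commute v y ∧ Commute x y ∧ w * y * w⁻¹ = y⁻¹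

section

variable {G : Type*} [Group G]

theorem bad_map {G' : Type*} [Group G'] (f : G ≃* G') {v : G} (h : Bad v) : Bad (f v) := by
  obtain ⟨x, hx, hi, hw⟩ := h
  refine ⟨f x, by rwa [MulEquiv.orderOf_eq], ?_, ?_⟩
  · rw [← map_mul, ← map_inv, ← map_mul, hi, map_inv]
  · intro w hw1 hww hwv hwx
    have k1 : f.symm w ≠ 1 := by
      intro h1
      apply hw1
      rw [← f.apply_symm_apply w, h1, map_one]
    have k2 : f.symm w * f.symm w = 1 := by rw [← map_mul, hww, map_one]
    have k3 : Commute (f.symm w) v := by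
      have h1 := hwv.map f.symm
      rwa [MulEquiv.symm_apply_apply] at h1
    have k4 : Commute (f.symm w) x := by
      have h1 := hwx.map f.symm
      rwa [MulEquiv.symm_apply_apply] at h1
    obtain ⟨y, hy1, hyo, hvy, hxy, hwy⟩ := hw (f.symm w) k1 k2 k3 k4
    refine ⟨f y, ?_, by rwa [MulEquiv.orderOf_eq], hvy.map f, hxy.map f, ?_⟩
    · intro h1
      exact hy1 (f.injective (by rw [h1, map_one]))
    · have h1 := congrArg f hwy
      rw [map_mul, map_mul, map_inv, map_inv, MulEquiv.apply_symm_apply] at h1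
      exact h1

theorem bad_conj {v v' : G} (hc : IsConj v v') (h : Bad v) : Bad v' := by
  obtain ⟨g, rfl⟩ := isConj_iff.1 hc
  exact bad_map (MulAut.conj g) h

/-- `v` is bad if `O_2(C(v) ∩ C(x)) = 1` -/
theorem bad_of_O2 [Finite G] {v x : G} (hx : Odd (orderOf x)) (hi : v * x * v⁻¹ = x⁻¹)
    (hO : O2 (centralizer ({v} : Set G) ⊓ centralizer ({x} : Set G)) = ⊥) : Bad v := by
  refine ⟨x, hx, hi, fun w hw1 hww hwv hwx => ?_⟩
  by_contra hcon
  push Not at hcon
  apply hw1
  have h1 : w ∈ O2 (centralizer ({v} : Set G) ⊓ centralizer ({x} : Set G)) := by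
    apply mem_O2_of (mem_inf.2 ⟨mem_centralizer_singleton_iff.2 hwv.eq, mem_centralizer_singleton_iff.2 hwx.eq⟩) hww
    intro y hy hyo hyi
    by_contra hy1
    obtain ⟨h1, h2⟩ := mem_inf.1 hy
    exact hcon y hy1 hyo (mem_centralizer_singleton_iff.1 h1).symm (mem_centralizer_singleton_iff.1 h2).symm hyi
  rwa [hO, mem_bot] at h1

/-- involutions `a, b` with `(a b)^n = 1`, `n` odd, are conjugate -/
theorem isConj_of_odd {a b : G} (ha : a * a = 1) (hb : b * b = 1) {n : ℕ} (hn : Odd n) (h : (a * b) ^ n = 1) :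
    IsConj a b := by
  obtain ⟨k, rfl⟩ := hn
  rw [isConj_iff]
  have hai : a⁻¹ = a := inv_eq_of_mul_eq_one_left ha
  have hbi : b⁻¹ = b := inv_eq_of_mul_eq_one_left hb
  have h1 : ∀ m : ℕ, (a * b) ^ m * a = a * (b * a) ^ m := by
    intro m
    induction m with
    | zero => rw [pow_zero, pow_zero, one_mul, mul_one]
    | succ m ih =>
      rw [pow_succ', mul_assoc, ih, pow_succ']
      simp only [mul_assoc]
  refine ⟨(a * b) ^ k, ?_⟩
  have h2 : ((a * b) ^ k)⁻¹ = (b * a) ^ k := by
    rw [← inv_pow, mul_inv_rev, hai, hbi]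
  have h3 : (b * a) ^ (2 * k + 1) = 1 := by
    have h4 := congrArg (fun z : G => z⁻¹) h
    simp only [inv_one] at h4
    rwa [← inv_pow, mul_inv_rev, hai, hbi] at h4
  have h5 : (b * a) ^ k * (b * a) ^ k = a * b := by
    rw [← pow_add, ← two_mul]
    rw [pow_succ] at h3
    rw [eq_inv_of_mul_eq_one_left h3, mul_inv_rev, hai, hbi]
  rw [h1, h2, mul_assoc, h5, ← mul_assoc, ha, one_mul]

end

section

variable {G : Type u} [Group G] [Finite G] {V K : Subgroup G}

/-- no element of `V#` is bad -/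
theorem not_bad (h : Cx V K) {v : G} (hv : v ∈ V) (hv1 : v ≠ 1) : ¬ Bad v := by
  rintro ⟨x, hx, hi, hw⟩
  exact h.false_of hv hv1 hx hi fun w hwV hw1 hwx => hw w hw1 (h.sq hwV) (h.comm hwV hv) hwx

/-- `G ≃* X` if `K ≃* X` and all automorphisms of `X` are inner -/
theorem exists_equiv (h : Cx V K) {X : Type v} [Group X] (e : K ≃* X)
    (hin : ∀ α : MulAut X, ∃ s : X, ∀ g, α g = s * g * s⁻¹) : Nonempty (G ≃* X) := by
  obtain ⟨φ, hφ, hφk, -⟩ := h.exists_toAut e
  have hK : K = ⊤ := by
    rw [eq_top_iff]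
    intro g _
    obtain ⟨s, hs⟩ := hin (φ g)
    have h1 : φ g = φ (e.symm s : K) := by
      rw [hφk, MulEquiv.apply_symm_apply]
      exact MulEquiv.ext hs
    rw [hφ h1]
    exact (e.symm s).2
  subst hK
  exact ⟨Subgroup.topEquiv.symm.trans e⟩

/-- **The criterion.** All automorphisms of `X` are inner, every involution of `X` is bad or is conjugate to an
involution `t` inverting some `x` of odd order such that `t w` is bad for all involutions `w` of `C(t) ∩ C(x)`. -/
theorem false_of_classes (h : Cx V K) {X : Type v} [Group X] (e : K ≃* X)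
    (hin : ∀ α : MulAut X, ∃ s : X, ∀ g, α g = s * g * s⁻¹)
    (hcl : ∀ y : X, y ≠ 1 → y * y = 1 → Bad y ∨ ∃ t x : X, IsConj t y ∧ Odd (orderOf x) ∧ t * x * t⁻¹ = x⁻¹ ∧ x ≠ 1 ∧
      ∀ w : X, w ≠ 1 → w * w = 1 → Commute w t → Commute w x → Bad (t * w)) : False := by
  obtain ⟨f⟩ := exists_equiv h e hin
  obtain ⟨v, hv, hv1⟩ : ∃ w ∈ V, w ≠ 1 := by
    by_contra hcon
    push Not at hcon
    exact h.V_ne_bot ((Subgroup.eq_bot_iff_forall V).2 hcon)
  rcases hcl (f v) (fun h1 => hv1 (f.injective (by rw [h1, map_one]))) (by rw [← map_mul, h.sq hv, map_one]) with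
    hb | ⟨t, x, hc, hx, hi, hx1, hw⟩
  · have h1 := bad_map f.symm hb
    rw [MulEquiv.symm_apply_apply] at h1
    exact not_bad h hv hv1 h1
  · obtain ⟨c, hc⟩ := isConj_iff.1 hc
    -- the isomorphism taking `v` to `t`
    let f' : G ≃* X := f.trans (MulAut.conj c⁻¹)
    have hf' : f' v = t := by
      show c⁻¹ * f v * c⁻¹⁻¹ = t
      rw [← hc]; group
    have hi' : v * f'.symm x * v⁻¹ = (f'.symm x)⁻¹ := by
      apply f'.injective
      rw [map_mul, map_mul, map_inv, map_inv, MulEquiv.apply_symm_apply, hf', hi]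
    obtain ⟨w, hwV, hw1, hwx⟩ := h.t0 hv (x := f'.symm x) (by rwa [MulEquiv.orderOf_eq]) hi'
    have hwx' : Commute (f' w) x := by
      have h1 := hwx.map f'
      rwa [MulEquiv.apply_symm_apply] at h1
    have hwt : Commute (f' w) t := by
      have h1 := (h.comm hwV hv).map f'
      rwa [hf'] at h1
    have hb := hw (f' w) (fun h1 => hw1 (f'.injective (by rw [h1, map_one])))
      (by rw [← map_mul, h.sq hwV, map_one]) hwt hwx'
    rw [← hf', ← map_mul] at hb
    have h1 := bad_map f'.symm hb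
    rw [MulEquiv.symm_apply_apply] at h1
    refine not_bad h (V.mul_mem hv hwV) ?_ h1
    intro h2
    -- `v = w` commutes with `x` and inverts it
    have h3 : v = w := by
      rw [mul_eq_one_iff_eq_inv] at h2
      rw [h2, h.inv_eq hwV]
    apply hx1
    apply S3011.eq_one_of_odd_of_inv hx
    rw [← hi, ← hf', h3, hwx'.eq]; group

end

end Cfsg.Agent.H768.SK
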