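import Cfsg.Agent.H768.SK.Bad
import Cfsg.Agent.H768.SK.Co1Data
import Cfsg.Agent.CoOneType.ClosingCo1
import Cfsg.Agent.LThreeMB.CEight
import Cfsg.Agent.ConwayFacts.AutCo1

/-!
# S3010 (Sidki pairs): the row `Co₁` (helper768)

* `bad_of_eleven` : an element inverting `s` (order 11) and centralising `a` (`C(s) = ⟨s⟩ × ⟨a, w⟩`) is bad;
* `bad_B` : the involutions with square `-1` in `Co₀` are bad; `bad_A` : those of the class of the sign changes on the
  octads are bad (`x` of order three with `C(x) = 3 × A₉`);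
* `dead`.
-/

set_option autoImplicit false
set_option maxRecDepth 100000

universe u

namespace Cfsg.Agent.H768.SK.Co1

open Subgroup Cfsg
open Cfsg.Agent.H282.SK
open Cfsg.Agent.H800.ME.CoFacts (a w s t aa finite_co1 orderOf_a orderOf_s a_ne s_ne a_pow1 s_pow aa_ne aa_cube
  ts w_sq1 w_ne ws as)
open Cfsg.Agent.SporadicA.Co0Mono Cfsg.Agent.SporadicA.Co1Simple
open Cfsg.Agent.CoOneType.CoEval Cfsg.Agent.LThreeCo1.Ev
open Cfsg.Agent.CoOneType.SignFacts (wt)
open Cfsg.Agent.CoOneType.ClosingFacts (mk mk_mul mk_inv mk_eq_one isConj_mk co1_cases neg_eq)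
open Cfsg.Spor (Co1)

/-! ### The element of order eleven -/

theorem sym_inv : ∀ n c : Equiv.Perm (Fin 3), c ≠ 1 → c * c * c = 1 → n ≠ 1 → n * n = 1 → n * c * n⁻¹ = c⁻¹ := by
  decide

theorem xx_inv {n : LThreeMB.XX s} (hn : n ≠ 1) (hnn : n * n = 1) : n * aa * n⁻¹ = aa⁻¹ := by
  obtain ⟨φ⟩ := H800.ME.CoFacts.exists_equiv
  have h := sym_inv (φ n) (φ aa) (fun h => aa_ne (φ.injective (by rw [h, map_one])))
    (by rw [← map_mul, ← map_mul, aa_cube, map_one]) (fun h => hn (φ.injective (by rw [h, map_one])))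
    (by rw [← map_mul, hnn, map_one])
  apply φ.injective
  rw [map_mul, map_mul, map_inv, map_inv, h]

theorem zpow_s_eq_one {i : ℤ} (h : (s ^ i) ^ 3 = 1) : s ^ i = 1 := by
  have h1 : (s ^ i) ^ 11 = 1 := by
    rw [← zpow_natCast, ← zpow_mul, mul_comm, zpow_mul, zpow_natCast, s_pow, one_zpow]
  calc s ^ i = ((s ^ i) ^ 3) ^ 4 * ((s ^ i) ^ 11)⁻¹ := by group
    _ = 1 := by rw [h, h1, one_pow, inv_one, mul_one]

/-- every involution of `C(s)` inverts `a` -/
theorem inv_a {u : Co1} (hu1 : u ≠ 1) (huu : u * u = 1) (hus : u * s = s * u) : u * a * u⁻¹ = a⁻¹ := by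
  have hus' : Commute u s := hus
  have has' : Commute a s := as
  have hn : LThreeMB.mk s hus ≠ 1 := by
    intro h
    obtain ⟨i, hi⟩ := (LThreeMB.mk_eq_one hus).1 h
    apply hu1
    have h1 : u ^ 11 = 1 := by
      rw [← hi, ← zpow_natCast, ← zpow_mul, mul_comm, zpow_mul, zpow_natCast, s_pow, one_zpow]
    calc u = u ^ 11 * ((u * u) ^ 5)⁻¹ := by rw [← pow_two]; group
      _ = 1 := by rw [h1, huu, one_pow, inv_one, mul_one]
  have hnn : LThreeMB.mk s hus * LThreeMB.mk s hus = 1 := by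
    have h0 : u * u * s = s * (u * u) := (hus'.mul_left hus').eq
    have h : LThreeMB.mk s hus * LThreeMB.mk s hus = LThreeMB.mk s h0 := rfl
    rw [h, LThreeMB.mk_eq_one]
    exact ⟨0, by rw [zpow_zero, huu]⟩
  have h := xx_inv hn hnn
  have k1 : (u * a * u⁻¹) * s = s * (u * a * u⁻¹) := ((hus'.mul_left has').mul_left hus'.inv_left).eq
  have k2 : a⁻¹ * s = s * a⁻¹ := has'.inv_left.eq
  have h' : LThreeMB.mk s k1 = LThreeMB.mk s k2 := h
  obtain ⟨i, hi⟩ := (LThreeMB.mk_eq_mk k1 k2).1 h'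
  have hc : Commute (u * a * u⁻¹) (s ^ i) := (show Commute (u * a * u⁻¹) s from k1).zpow_right i
  have h3 : (s ^ i) ^ 3 = 1 := by
    have h4 : (u * a * u⁻¹ * s ^ i) ^ 3 = 1 := by rw [hi, inv_pow, a_pow1, inv_one]
    rw [hc.mul_pow, conj_pow, a_pow1, mul_one, mul_inv_cancel, one_mul] at h4
    exact h4
  rw [zpow_s_eq_one h3, mul_one] at hi
  exact hi

theorem odd_s : Odd (orderOf s) := by rw [orderOf_s]; decide

theorem odd_a : Odd (orderOf a) := by rw [orderOf_a]; decide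

/-- an element inverting `s` and centralising `a` is bad -/
theorem bad_of_eleven {v : Co1} (hi : v * s * v⁻¹ = s⁻¹) (hc : Commute v a) : Bad v := by
  refine ⟨s, odd_s, hi, fun u hu1 huu _ hus => ?_⟩
  exact ⟨a, a_ne, odd_a, hc, (show Commute a s from as).symm, inv_a hu1 huu hus⟩

theorem t_inv_a : t * a * t⁻¹ = a⁻¹ := by
  have h1 := eq_of_eqB Co1Data.rep Co1Data.kTA
  simp only [List.map_cons, List.map_nil, List.prod_cons, List.prod_nil, mul_one] at h1
  have h2 : t * a = a * (a * t) := congrArg mk h1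
  rw [h2]
  have h3 : a * a = a⁻¹ := by
    rw [eq_inv_iff_mul_eq_one, ← a_pow1]
    simp only [pow_succ, pow_zero, one_mul]
  calc a * (a * t) * t⁻¹ = a * a := by group
    _ = a⁻¹ := h3

theorem t_sq : t * t = 1 := by
  have h1 := eq_of_eqB Co1Data.rep Co1Data.kTT
  simp only [List.map_cons, List.map_nil, List.prod_cons, List.prod_nil, mul_one] at h1
  exact congrArg mk h1

/-- `t w` is bad for every involution `w` of `C(s)` -/
theorem bad_tu {u : Co1} (hu1 : u ≠ 1) (huu : u * u = 1) (hus : Commute u s) : Bad (t * u) := by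
  apply bad_of_eleven
  · calc t * u * s * (t * u)⁻¹ = t * (u * s) * u⁻¹ * t⁻¹ := by group
      _ = t * (s * u) * u⁻¹ * t⁻¹ := by rw [hus.eq]
      _ = t * s * t⁻¹ := by group
      _ = s⁻¹ := ts
  · have h1 := inv_a hu1 huu hus.eq
    have h2 : t * u * a * (t * u)⁻¹ = a := by
      calc t * u * a * (t * u)⁻¹ = t * (u * a * u⁻¹) * t⁻¹ := by group
        _ = (t * a * t⁻¹)⁻¹ := by rw [h1]; group
        _ = a := by rw [t_inv_a, inv_inv]
    exact mul_inv_eq_iff_eq_mul.1 h2

/-! ### The class of square `-1` -/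

theorem tw_sq : (H800.ME.Data.e 4 * H800.ME.Data.e 1) * (H800.ME.Data.e 4 * H800.ME.Data.e 1) = signCo0 allOne := by
  have h1 := eq_neg_of_negB H800.ME.Data.rep (w := [4, 1, 4, 1]) (by decide +kernel)
  simp only [List.map_cons, List.map_nil, List.prod_cons, List.prod_nil, mul_one] at h1
  rw [← neg_eq, ← h1]
  simp only [mul_assoc]

theorem bad_B {y : Co0} (hy : ∃ g : Co0, g * y * g⁻¹ = Cfsg.Agent.CoOneType.InvMain.b0) : Bad (mk y) := by
  obtain ⟨g, hg⟩ := hy
  obtain ⟨g', hg'⟩ := Cfsg.Agent.CoOneType.ClosingCo1.a1' _ tw_sq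
  have h1 : IsConj (mk y) (mk Cfsg.Agent.CoOneType.InvMain.b0) := isConj_mk g hg
  have h2 : IsConj (t * w) (mk Cfsg.Agent.CoOneType.InvMain.b0) := isConj_mk g' hg'
  exact bad_conj (h2.trans h1.symm) (bad_tu w_ne w_sq1 ws)

/-! ### The class of the octads -/

open Cfsg.Agent.LThreeCo1T8.Main (AA ss gg xx)

/-- inverts `xx` -/
noncomputable def vv : Co1 := mk (Co1Data.e 5)

theorem vv_ss : vv * ss = ss * vv := by
  have h1 := eq_of_eqB Co1Data.rep Co1Data.kVS
  simp only [List.map_cons, List.map_nil, List.prod_cons, List.prod_nil, mul_one] at h1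
  exact congrArg mk h1

theorem vv_gg : vv * gg = gg * vv := by
  have h1 := eq_of_eqB Co1Data.rep Co1Data.kVG
  simp only [List.map_cons, List.map_nil, List.prod_cons, List.prod_nil, mul_one] at h1
  exact congrArg mk h1

theorem vv_sq : vv * vv = 1 := by
  have h1 := eq_of_eqB Co1Data.rep Co1Data.kVV
  simp only [List.map_cons, List.map_nil, List.prod_cons, List.prod_nil, mul_one] at h1
  exact congrArg mk h1

theorem vv_xx : vv * xx * vv⁻¹ = xx⁻¹ := by
  have h1 := eq_of_eqB Co1Data.rep Co1Data.kVX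
  simp only [List.map_cons, List.map_nil, List.prod_cons, List.prod_nil, mul_one] at h1
  have h2 : xx * (vv * xx) = vv := by
    rw [← LThreeCo1T8.Main.e2]
    exact congrArg mk h1
  have h3 : vv * xx = xx⁻¹ * vv := by rw [eq_inv_mul_iff_mul_eq]; exact h2
  rw [h3, mul_inv_cancel_right]

theorem AA_le_vv : AA ≤ centralizer {vv} := by
  rw [AA, Lib.AltCarmichael.gen_def, closure_le]
  rintro _ ⟨i, -, rfl⟩
  rw [SetLike.mem_coe, mem_centralizer_singleton_iff]
  have h1 : Commute gg vv := vv_gg.symm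
  have h2 : Commute ss vv := vv_ss.symm
  have h3 : Commute (gg ^ i) vv := h1.pow_left i
  exact (h3.mul_left h2).mul_left h3.inv_left

theorem cent_eq : centralizer ({vv} : Set Co1) ⊓ centralizer ({xx} : Set Co1) = AA := by
  apply le_antisymm
  · intro g hg
    obtain ⟨hg1, hg2⟩ := mem_inf.1 hg
    rw [← LThreeCo1T8.Main.sup_eq] at hg2
    obtain ⟨α, hα, i, rfl⟩ := LThreeMB.CEight.mem_sup LThreeCo1T8.Main.AA_le hg2
    have h1 : Commute α vv := mem_centralizer_singleton_iff.1 (AA_le_vv hα)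
    have h2 : Commute (α * xx ^ i) vv := mem_centralizer_singleton_iff.1 hg1
    have h3 : Commute (xx ^ i) vv := by
      have : xx ^ i = α⁻¹ * (α * xx ^ i) := by group
      rw [this]
      exact h1.inv_left.mul_left h2
    have h4 : (xx ^ i) = (xx ^ i)⁻¹ := by
      calc xx ^ i = vv * xx ^ i * vv⁻¹ := by rw [← h3.eq]; group
        _ = (vv * xx * vv⁻¹) ^ i := (conj_zpow).symm
        _ = (xx ^ i)⁻¹ := by rw [vv_xx, inv_zpow]
    have h5 : Odd (orderOf (xx ^ i)) := by
      have h6 : (xx ^ i) ^ 3 = 1 := by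
        rw [← zpow_natCast, ← zpow_mul, mul_comm, zpow_mul, zpow_natCast, LThreeCo1T8.Main.x_pow, one_zpow]
      exact Odd.of_dvd_nat (by decide) (orderOf_dvd_of_pow_eq_one h6)
    rw [S3011.eq_one_of_odd_of_inv h5 h4, mul_one]
    exact hα
  · exact le_inf AA_le_vv LThreeCo1T8.Main.AA_le

theorem O2_AA : O2 AA = ⊥ := by
  have hfin := finite_co1
  have hs := LThreeCo1T8.Main.simple_AA
  unfold O2
  rw [Subgroup.map_eq_bot_iff_of_injective _ AA.subtype_injective]
  rcases hs.eq_bot_or_eq_top_of_normal (pCore 2 ↥AA) (Lib.Cores.pCore_normal 2) with h | h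
  · exact h
  · exfalso
    have h1 : IsPGroup 2 (pCore 2 ↥AA) := Lib.Cores.pCore_isPGroup 2
    rw [h] at h1
    obtain ⟨k, hk⟩ := IsPGroup.iff_card.1 h1
    rw [Subgroup.card_top, LThreeCo1T8.Main.card_AA] at hk
    have h2 : 3 ∣ 2 ^ k := by rw [← hk]; norm_num
    have h3 := Nat.prime_three.dvd_of_dvd_pow h2
    norm_num at h3

theorem bad_vv : Bad vv := by
  have hfin := finite_co1
  refine bad_of_O2 (x := xx) (by rw [LThreeCo1T8.Main.order_x]; decide) vv_xx ?_
  rw [cent_eq, O2_AA]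

/-! ### Conjugations -/

theorem mk_sq (c : golayCode) : mk (signCo0 c) * mk (signCo0 c) = 1 := by
  rw [← mk_mul, signCo0_mul_self]; rfl

theorem conj_aux {g b : Co1} (h : b * b = 1) : g * b * g⁻¹ * (g * b * g⁻¹) = 1 := by
  calc g * b * g⁻¹ * (g * b * g⁻¹) = g * (b * b) * g⁻¹ := by group
    _ = 1 := by rw [h]; group

/-- `vv` is conjugate to the sign change on an octad -/
theorem conj_O : IsConj vv (mk (Co1Data.e 6)) := by
  have h1 := congrArg mk (eq_of_eqB Co1Data.rep Co1Data.kVO)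
  have hA := congrArg mk (eq_of_eqB Co1Data.rep Co1Data.kAAA)
  have hS := congrArg mk (eq_of_eqB Co1Data.rep Co1Data.kSSS)
  simp only [List.map_cons, List.map_nil, List.prod_cons, List.prod_nil, mul_one, mk_mul] at h1 hA hS
  have hO : mk (Co1Data.e 6) * mk (Co1Data.e 6) = 1 := by rw [Co1Data.eO]; exact mk_sq _
  set A := mk (Co1Data.e 0) with hAd
  set S := mk (Co1Data.e 3) with hSd
  set O := mk (Co1Data.e 6) with hOd
  have hA' : A⁻¹ = A * A := inv_eq_of_mul_eq_one_left (by rw [mul_assoc]; exact hA)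
  have hS' : S⁻¹ = S * S := inv_eq_of_mul_eq_one_left (by rw [mul_assoc]; exact hS)
  have h2 : IsConj vv ((A * S) * O * (A * S)⁻¹) := by
    refine isConj_of_odd vv_sq (conj_aux hO) (n := 3) (by decide) ?_
    refine Eq.trans ?_ h1
    rw [mul_inv_rev, hA', hS']
    simp only [pow_succ, pow_zero, one_mul, mul_assoc]
    rfl
  exact h2.trans (isConj_iff.2 ⟨(A * S)⁻¹, by group⟩)

/-- `t` is conjugate to the sign change on a dodecad -/
theorem conj_N : IsConj t (mk (Co1Data.e 1)) := by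
  have h1 := congrArg mk (eq_of_eqB Co1Data.rep Co1Data.kTW)
  have hA := congrArg mk (eq_of_eqB Co1Data.rep Co1Data.kAAA)
  have hS := congrArg mk (eq_of_eqB Co1Data.rep Co1Data.kSSS)
  have hX := congrArg mk (eq_of_eqB Co1Data.rep Co1Data.kXXX)
  simp only [List.map_cons, List.map_nil, List.prod_cons, List.prod_nil, mul_one, mk_mul] at h1 hA hS hX
  have hN : mk (Co1Data.e 1) * mk (Co1Data.e 1) = 1 := by rw [Co1Data.eN]; exact mk_sq _
  have hT : t⁻¹ = t := inv_eq_of_mul_eq_one_left t_sq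
  have hTd : mk (Co1Data.e 2) = t := rfl
  rw [hTd] at h1
  set A := mk (Co1Data.e 0) with hAd
  set S := mk (Co1Data.e 3) with hSd
  set X := mk (Co1Data.e 4) with hXd
  set N := mk (Co1Data.e 1) with hNd
  have hA' : A⁻¹ = A * A := inv_eq_of_mul_eq_one_left (by rw [mul_assoc]; exact hA)
  have hS' : S⁻¹ = S * S := inv_eq_of_mul_eq_one_left (by rw [mul_assoc]; exact hS)
  have hX' : X⁻¹ = X * X := inv_eq_of_mul_eq_one_left (by rw [mul_assoc]; exact hX)
  have h2 : IsConj t ((X * t * S * A) * N * (X * t * S * A)⁻¹) := by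
    refine isConj_of_odd t_sq (conj_aux hN) (n := 3) (by decide) ?_
    refine Eq.trans ?_ h1
    rw [mul_inv_rev, mul_inv_rev, mul_inv_rev, hA', hS', hX', hT]
    simp only [pow_succ, pow_zero, one_mul, mul_assoc]
  exact h2.trans (isConj_iff.2 ⟨(X * t * S * A)⁻¹, by group⟩)

/-! ### The row -/

/-- **The row `Co₁`.** -/
theorem dead : DeadS.{u} (fun K _ => Cfsg.Spor.IsoCo1 K) := by
  intro G _ _ V K h hK
  obtain ⟨e⟩ := hK
  refine false_of_classes h e ConwayFacts.AutCo1.inner fun y hy1 hyy => ?_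
  rcases co1_cases (Cfsg.Agent.CoOneType.MonoWord.cw Co1Data.mO Co1Data.mO_code)
    (Cfsg.Agent.CoOneType.MonoWord.cw Co1Data.mN Co1Data.mN_code) Cfsg.Agent.CoOneType.ClosingCo1.a1
    Cfsg.Agent.CoOneType.ClosingCo1.a1' Co1Data.wt_O Co1Data.wt_N y hyy hy1 with hc | hc | ⟨y', rfl, hc⟩
  · left
    refine bad_conj (conj_O.trans ?_) bad_vv
    rw [Co1Data.eO]
    exact hc
  · right
    refine ⟨t, s, conj_N.trans ?_, odd_s, ts, s_ne, fun u hu1 huu _ hus => bad_tu hu1 huu hus⟩
    rw [Co1Data.eN]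
    exact hc
  · left
    exact bad_B hc

end Cfsg.Agent.H768.SK.Co1
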